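import Cfsg.Agent.H681.Sev.Sub
import Cfsg.Agent.H681.Sev.Ext
import Cfsg.Agent.H681.Sev.FixFive
import Cfsg.Agent.H848.PSq.Rel
import Cfsg.Agent.H673.DiscAb

/-!
# S4844, PS-12: `seven_odd` from its parts
-/

set_option autoImplicit false

namespace Cfsg.Agent.H681.Sev.Odd

open Cfsg Subgroup Cfsg.Agent.H33 Cfsg.Agent.H681.Sev.A7

universe u

/-- the counting part -/
def Key : Prop := ∀ (M : Type u) [CommGroup M] [Finite M] [MulDistribMulAction (alternatingGroup (Fin 7)) M]
  (r n : ℕ), r.Prime → r ≠ 2 → Nat.card M = r ^ n → n ≠ 0 →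
  (∀ (m : M) (x : alternatingGroup (Fin 7)), (orderOf x = 5 ∨ orderOf x = 7) → x • m = m → m = 1) →
  (∀ m : M, ∃ t : alternatingGroup (Fin 7), orderOf t = 2 ∧ t • m = m) → False

section

variable {K : Type u} [Group K] [Finite K] {V : Subgroup K} [hVn : V.Normal] {Q : Type*} [Group Q]
  {f : K →* Q} (hf : Function.Surjective f) (hV : V = f.ker)

attribute [local instance] H673.dualAct

/-- the action on the dual of `V` as a homomorphism -/
noncomputable def rho (hab : ∀ a b : V, a * b = b * a) : Q →* MulAut (V →* ℂˣ) :=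
  f.liftOfSurjective hf ⟨MulDistribMulAction.toMulAut K (V →* ℂˣ), by
    intro g hg
    rw [← hV] at hg
    rw [MonoidHom.mem_ker]
    ext1 l
    exact H673.smul_of_mem hab hg l⟩

theorem rho_apply (hab : ∀ a b : V, a * b = b * a) (g : K) (l : V →* ℂˣ) :
    rho hf hV hab (f g) l = g • l := by
  unfold rho
  rw [MonoidHom.liftOfRightInverse_comp_apply]
  rfl

theorem rho_fix_iff (hab : ∀ a b : V, a * b = b * a) (g : K) (l : V →* ℂˣ) :
    rho hf hV hab (f g) l = l ↔ ∀ n : V, l ⟨g * n * g⁻¹, hVn.conj_mem (n : K) n.2 g⟩ = l n := by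
  rw [rho_apply, H673.smul_eq_iff, H672.mem_inertia_lf]
  rfl

/-- the action on the dual of `V` -/
@[reducible] noncomputable def dAct (hab : ∀ a b : V, a * b = b * a) : MulDistribMulAction Q (V →* ℂˣ) where
  smul q l := rho hf hV hab q l
  one_smul l := by
    show rho hf hV hab 1 l = l
    rw [map_one]; rfl
  mul_smul a b l := by
    show rho hf hV hab (a * b) l = rho hf hV hab a (rho hf hV hab b l)
    rw [map_mul]; rfl
  smul_one a := map_one (rho hf hV hab a)
  smul_mul a l m := map_mul (rho hf hV hab a) l m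

end

/-- a minimal normal subgroup which is commutative is a `p`-group -/
theorem exists_prime {K : Type u} [Group K] [Finite K] {V : Subgroup K} [hVn : V.Normal]
    (hab : ∀ a b : V, a * b = b * a) (hV1 : V ≠ ⊥)
    (hmin : ∀ N : Subgroup K, N.Normal → N ≤ V → N = ⊥ ∨ N = V) :
    ∃ r n : ℕ, r.Prime ∧ n ≠ 0 ∧ Nat.card V = r ^ n := by
  have h1 : Nat.card V ≠ 1 := by rwa [Ne, card_eq_one]
  obtain ⟨r, hr, hrd⟩ := Nat.exists_prime_and_dvd h1
  have : Fact r.Prime := ⟨hr⟩
  have hab' : ∀ a ∈ V, ∀ b ∈ V, a * b = b * a := fun a ha b hb =>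
    congrArg Subtype.val (hab ⟨a, ha⟩ ⟨b, hb⟩)
  let N : Subgroup K :=
    { carrier := {v | v ∈ V ∧ v ^ r = 1}
      one_mem' := ⟨V.one_mem, one_pow r⟩
      mul_mem' := by
        rintro a b ⟨ha, ha'⟩ ⟨hb, hb'⟩
        refine ⟨V.mul_mem ha hb, ?_⟩
        have hc : Commute a b := hab' a ha b hb
        rw [hc.mul_pow, ha', hb', one_mul]
      inv_mem' := by
        rintro a ⟨ha, ha'⟩
        exact ⟨V.inv_mem ha, by rw [inv_pow, ha', inv_one]⟩ }
  have hN : N.Normal := ⟨by
    rintro n ⟨hn, hn'⟩ g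
    exact ⟨hVn.conj_mem n hn g, by rw [conj_pow, hn', mul_one, mul_inv_cancel]⟩⟩
  have hNV : N = V := by
    rcases hmin N hN (fun v hv => hv.1) with h | h
    · exfalso
      obtain ⟨v, hv⟩ := exists_prime_orderOf_dvd_card' (G := V) r hrd
      have h2 : (v : K) ∈ N := ⟨v.2, by
        have := pow_orderOf_eq_one v
        rw [hv] at this
        exact congrArg Subtype.val this⟩
      rw [h, mem_bot] at h2
      have h3 : v = 1 := Subtype.ext h2
      rw [h3, orderOf_one] at hv
      exact hr.one_lt.ne hv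
    · exact h
  have hp : IsPGroup r V := by
    intro v
    refine ⟨1, ?_⟩
    have h2 : (v : K) ∈ N := by rw [hNV]; exact v.2
    rw [pow_one]
    exact Subtype.ext h2.2
  obtain ⟨n, hn⟩ := IsPGroup.iff_card.1 hp
  refine ⟨r, n, hr, ?_, hn⟩
  rintro rfl
  exact h1 (by rw [hn, pow_zero])

theorem main (hkey : Key.{u}) (h5009 : Sub.Fact5009.{0}) {K : Type u} [Group K] [Finite K] {V : Subgroup K}
    [hVn : V.Normal] (hab : IsMulCommutative V) (hodd : Odd (Nat.card V))
    (hmin : ∀ N : Subgroup K, N.Normal → N ≤ V → N = ⊥ ∨ N = V) (hnc : ¬ V ≤ center K)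
    (e : Nonempty (K ⧸ V ≃* alternatingGroup (Fin 7))) : IM 4 K := by
  by_contra hIM
  obtain ⟨e⟩ := e
  have hab' : ∀ a b : V, a * b = b * a := fun a b => hab.is_comm.comm a b
  have hV1 : V ≠ ⊥ := by
    rintro rfl
    exact hnc bot_le
  obtain ⟨r, n, hr, hn, hVc⟩ := exists_prime hab' hV1 hmin
  have : Fact r.Prime := ⟨hr⟩
  have hr2 : r ≠ 2 := by
    rintro rfl
    rw [hVc, ← Nat.not_even_iff_odd] at hodd
    exact hodd ((even_two).pow_of_ne_zero hn)
  -- the homomorphism onto `A₇`
  let f : K →* alternatingGroup (Fin 7) := e.toMonoidHom.comp (QuotientGroup.mk' V)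
  have hf : Function.Surjective f := e.surjective.comp (QuotientGroup.mk'_surjective V)
  have hV : V = f.ker := by
    ext v
    rw [MonoidHom.mem_ker]
    constructor
    · intro hv
      change e ((v : K) : K ⧸ V) = 1
      rw [(QuotientGroup.eq_one_iff v).2 hv, map_one]
    · intro hv
      change e ((v : K) : K ⧸ V) = 1 at hv
      exact (QuotientGroup.eq_one_iff v).1 ((map_eq_one_iff e e.injective).1 hv)
  letI : MulDistribMulAction (alternatingGroup (Fin 7)) (V →* ℂˣ) := dAct hf hV hab'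
  have hsmul : ∀ (g : K) (l : V →* ℂˣ), f g • l = l ↔
      ∀ n : V, l ⟨g * n * g⁻¹, hVn.conj_mem (n : K) n.2 g⟩ = l n := fun g l => rho_fix_iff hf hV hab' g l
  have hst : ∀ (l : V →* ℂˣ) (g : K), f g ∈ MulAction.stabilizer (alternatingGroup (Fin 7)) l ↔
      ∀ n : V, l ⟨g * n * g⁻¹, hVn.conj_mem (n : K) n.2 g⟩ = l n := fun l g => hsmul g l
  -- stabilizers are proper
  have htop : ∀ l : V →* ℂˣ, l ≠ 1 → MulAction.stabilizer (alternatingGroup (Fin 7)) l ≠ ⊤ := by
    intro l hl h
    have h1 : ∀ (g : K) (n : V), l ⟨g * n * g⁻¹, hVn.conj_mem (n : K) n.2 g⟩ = l n := fun g =>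
      (hst l g).1 (by rw [h]; exact mem_top _)
    have hN : (l.ker.map V.subtype).Normal := ⟨by
      rintro _ ⟨v, hv, rfl⟩ g
      refine ⟨⟨g * v * g⁻¹, hVn.conj_mem (v : K) v.2 g⟩, ?_, rfl⟩
      have hv' : l v = 1 := hv
      exact (h1 g v).trans hv'⟩
    rcases hmin _ hN (by rintro _ ⟨v, -, rfl⟩; exact v.2) with h2 | h2
    · apply hnc
      have h3 : l.ker = ⊥ := (map_eq_bot_iff_of_injective _ V.subtype_injective).1 h2
      have h4 : Function.Injective l := (MonoidHom.ker_eq_bot_iff l).1 h3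
      intro v hv
      rw [mem_center_iff]
      intro g
      have h5 := congrArg Subtype.val (h4 (h1 g ⟨v, hv⟩))
      exact mul_inv_eq_iff_eq_mul.1 h5
    · apply hl
      ext v
      have h3 : (v : K) ∈ l.ker.map V.subtype := by rw [h2]; exact v.2
      obtain ⟨w, hw, hwv⟩ := h3
      have h4 : w = v := Subtype.ext hwv
      rw [← h4, show l w = 1 from hw]
      rfl
  -- the index of the stabilizers
  have hidx : ∀ l : V →* ℂˣ, ¬ 4 ∣ (MulAction.stabilizer (alternatingGroup (Fin 7)) l).index := by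
    intro l h4
    apply hIM
    obtain ⟨χ, hχ, ho⟩ := H672.exists_over V (H672.lf l) (H672.isIrr_lf l)
    refine IM.intro hχ ?_
    have h1 : (H672.inertia V (H672.lf l)).index ∣ charDegree χ :=
      H672.index_dvd_of_over hχ (H672.isIrr_lf l) ho
    have h2 : H672.inertia V (H672.lf l) =
        (MulAction.stabilizer (alternatingGroup (Fin 7)) l).comap f := by
      ext g
      rw [mem_comap, hst, H672.mem_inertia_lf]
      rfl
    rw [h2, index_comap_of_surjective _ hf] at h1
    exact h4.trans h1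
  have h4T : ∀ l : V →* ℂˣ, 4 ∣ Nat.card (MulAction.stabilizer (alternatingGroup (Fin 7)) l) := fun l =>
    Sub.index_two (hidx l)
  -- an element of order 5 or 7 in a stabilizer
  have hq : ∀ (l : V →* ℂˣ) (q : ℕ) (x : alternatingGroup (Fin 7)), l ≠ 1 → q = 5 ∨ q = 7 → orderOf x = q →
      x • l = l → 9 ∣ Nat.card (MulAction.stabilizer (alternatingGroup (Fin 7)) l) := by
    intro l q x hl hq hx hxl
    set T := MulAction.stabilizer (alternatingGroup (Fin 7)) l with hT
    have hxT : x ∈ T := MulAction.mem_stabilizer_iff.2 hxl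
    obtain ⟨η, hη, hd⟩ := Sub.main h5009 hq hx hxT (htop l hl)
    by_cases hr9 : r ^ 2 ∣ Nat.card T
    · have h1 : r ^ 2 ∣ 2520 := by
        rw [← card_A7]
        exact hr9.trans (card_subgroup_dvd_card T)
      have h2 : r = 3 := by
        have hmem : r ∈ ({2, 3, 5, 7} : Finset ℕ) := by
          have h2 : r ∈ Nat.primeFactors 2520 :=
            Nat.mem_primeFactors.2 ⟨hr, (dvd_pow_self r two_ne_zero).trans h1, by norm_num⟩
          have h3 : Nat.primeFactors 2520 = {2, 3, 5, 7} := by decide +kernel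
          rwa [h3] at h2
        simp only [Finset.mem_insert, Finset.mem_singleton] at hmem
        rcases hmem with rfl | rfl | rfl | rfl
        · exact absurd rfl hr2
        · rfl
        · norm_num at h1
        · norm_num at h1
      rw [h2] at hr9
      exact hr9
    · exfalso
      apply hIM
      have hrel : V.relIndex (T.comap f) = Nat.card T := by
        have h1 : V = (⊥ : Subgroup (alternatingGroup (Fin 7))).comap f := by
          rw [hV]; rfl
        have h2 : V.relIndex (T.comap f) = (⊥ : Subgroup (alternatingGroup (Fin 7))).relIndex ((T.comap f).map f) := by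
          conv_lhs => rw [h1]
          exact relIndex_comap _ _ _
        rw [h2, map_comap_eq_self_of_surjective hf, relIndex_bot_left]
      obtain ⟨μ, hμ⟩ := Ext.extends_of_sq V (k := n) l (fun v => by
        rw [← hVc, ← map_pow, pow_card_eq_one', map_one]) (T.comap f) (H848.PSq.le_comap f V hV T)
        (fun g hg => (hst l g).1 hg) (by rwa [hrel])
      obtain ⟨X, hX, hX1⟩ := H848.PSq.deg_of_ext f V l T (fun g => hst l g) hf hV μ hμ hη
      exact IM.intro hX (by rw [hX1]; exact hd)
  -- counting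
  have : Finite (V →* ℂˣ) := H673.finite_dual V
  refine hkey (V →* ℂˣ) r n hr hr2 ?_ hn ?_ ?_
  · rw [Characters.Linear.card_hom_eq_index_commutator]
    have h1 : commutator V = ⊥ := by
      rw [commutator_eq_bot_iff_center_eq_top, eq_top_iff]
      intro a _
      exact mem_center_iff.2 fun b => hab' b a
    rw [h1, index_bot, hVc]
  · intro l x hx hxl
    rcases hx with hx | hx
    · refine FixFive.fix_five ?_ hx hxl
      intro m y hm hym hy
      refine ⟨?_, htop m hm⟩
      have h9 := hq m 5 y hm (Or.inl rfl) hy hym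
      have h5 : 5 ∣ Nat.card (MulAction.stabilizer (alternatingGroup (Fin 7)) m) := by
        rw [← hy]
        exact orderOf_dvd_natCard _ (MulAction.mem_stabilizer_iff.2 hym)
      have h36 : 4 * 9 ∣ Nat.card (MulAction.stabilizer (alternatingGroup (Fin 7)) m) :=
        Nat.Coprime.mul_dvd_of_dvd_of_dvd (by norm_num) (h4T m) h9
      exact Nat.Coprime.mul_dvd_of_dvd_of_dvd (by norm_num : Nat.Coprime (4 * 9) 5) h36 h5
    · by_contra hl
      exact htop l hl (Nine.seven (hq l 7 x hl (Or.inr rfl) hx hxl) (MulAction.mem_stabilizer_iff.2 hxl) hx)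
  · intro l
    have : Fact (Nat.Prime 2) := ⟨Nat.prime_two⟩
    obtain ⟨t, ht⟩ := exists_prime_orderOf_dvd_card' (G := MulAction.stabilizer (alternatingGroup (Fin 7)) l) 2
      ((by norm_num : (2 : ℕ) ∣ 4).trans (h4T l))
    exact ⟨t, by rw [orderOf_coe, ht], t.2⟩

end Cfsg.Agent.H681.Sev.Odd
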